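import Mathlib
import Cfsg.Agent.Lib.Helper98.A8.Pkgs
import Cfsg.Agent.Lib.Helper5.OrbitHom
import Cfsg.Agent.S0249
import Cfsg.Agent.S0495

/-!
# S2553, package L32: a simple group of order `168` is `GL₃(2)`
-/

set_option autoImplicit false
set_option linter.style.haveILetI false

namespace Cfsg.Agent.Lib.Helper80.A8

/-- Over the field with two elements, `SL = GL`. -/
noncomputable def slEquivGLTwo (k : ℕ) :
    Matrix.SpecialLinearGroup (Fin k) (ZMod 2) ≃* GL (Fin k) (ZMod 2) :=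
  MulEquiv.ofBijective (Matrix.SpecialLinearGroup.toGL)
    ⟨Matrix.SpecialLinearGroup.toGL_injective, fun A => by
      have h1 : ∀ a : (ZMod 2)ˣ, (a : ZMod 2) = 1 := by decide
      have hdet : (A : Matrix (Fin k) (Fin k) (ZMod 2)).det = 1 := by
        have h2 := h1 (Matrix.GeneralLinearGroup.det A)
        rw [Matrix.GeneralLinearGroup.val_det_apply] at h2
        exact h2
      refine ⟨⟨(A : Matrix (Fin k) (Fin k) (ZMod 2)), hdet⟩, ?_⟩
      apply Units.ext
      rfl⟩

theorem card_GL_three_two : Nat.card (GL (Fin 3) (ZMod 2)) = 168 := by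
  rw [Matrix.card_GL_field]
  simp [Fin.prod_univ_three]

/-- `GL₃(2)` is simple. -/
theorem isSimpleGroup_GL_three_two : IsSimpleGroup (GL (Fin 3) (ZMod 2)) := by
  haveI : IsSimpleGroup (Matrix.ProjectiveSpecialLinearGroup (Fin 3) (ZMod 2)) :=
    Cfsg.Agent.S0249.result 3 le_rfl
  have hc : Fintype.card (ZMod 2) = 2 := ZMod.card 2
  exact ((Cfsg.Agent.Lib.Helper5.pslEquivSL_of_card_two (n := Fin 3) hc).trans
    (slEquivGLTwo 3)).symm.isSimpleGroup

/-- [L32] A simple group of order `168` is `GL₃(2)`. -/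
theorem pkgL32 : Cfsg.Agent.Lib.Helper98.A8.PkgL32 := by
  intro K _ _ _ hK
  haveI : Fact (Nat.Prime 7) := ⟨by norm_num⟩
  have hc : Fintype.card (ZMod 7) = 7 := ZMod.card 7
  obtain ⟨e1⟩ := Cfsg.Agent.S0495.result (G := K) hK (F := ZMod 7) hc
  haveI := isSimpleGroup_GL_three_two
  obtain ⟨e2⟩ := Cfsg.Agent.S0495.result (G := GL (Fin 3) (ZMod 2)) card_GL_three_two
    (F := ZMod 7) hc
  exact ⟨e1.trans e2.symm⟩

end Cfsg.Agent.Lib.Helper80.A8
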