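import Mathlib
import Cfsg.Agent.Lib.Helper98.A8.Pkgs
import Cfsg.Agent.Lib.Helper5.OrbitHom
import Cfsg.Agent.S0249
import Cfsg.Agent.S0256

/-!
# S2553, package Trans: `GL₄(2)` embeds in the alternating group of degree eight
-/

set_option autoImplicit false
set_option linter.style.haveILetI false

namespace Cfsg.Agent.Lib.Helper80.A8

/-- `GL₄(2) → SL₄(2)`, the identity on matrices. -/
noncomputable def glToSlFour : GL (Fin 4) (ZMod 2) →*
    Matrix.SpecialLinearGroup (Fin 4) (ZMod 2) where
  toFun g := ⟨(g : Matrix (Fin 4) (Fin 4) (ZMod 2)), by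
    have h1 : ∀ a : (ZMod 2)ˣ, (a : ZMod 2) = 1 := by decide
    have h2 := h1 (Matrix.GeneralLinearGroup.det g)
    rw [Matrix.GeneralLinearGroup.val_det_apply] at h2
    exact h2⟩
  map_one' := Subtype.ext rfl
  map_mul' _ _ := Subtype.ext rfl

theorem glToSlFour_injective : Function.Injective glToSlFour := by
  intro g h hgh
  apply Units.ext
  exact congrArg Subtype.val hgh

/-- [TRANS] `GL₄(2)` embeds in the alternating group of degree eight. -/
theorem pkgTrans : Cfsg.Agent.Lib.Helper98.A8.PkgTrans := by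
  have hc : Fintype.card (ZMod 2) = 2 := ZMod.card 2
  obtain ⟨e⟩ := Cfsg.Agent.S0256.result (F := ZMod 2) hc
  let e0 := Cfsg.Agent.Lib.Helper5.pslEquivSL_of_card_two (n := Fin 4) hc
  refine ⟨(alternatingGroup (Fin 8)).subtype.comp
    ((e0.symm.trans e).toMonoidHom.comp glToSlFour), ?_, ?_⟩
  · intro x y hxy
    simp only [MonoidHom.coe_comp, Function.comp_apply] at hxy
    have h2 := (alternatingGroup (Fin 8)).subtype_injective hxy
    exact glToSlFour_injective ((e0.symm.trans e).injective h2)
  · intro x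
    exact ((e0.symm.trans e) (glToSlFour x)).2

end Cfsg.Agent.Lib.Helper80.A8
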